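import Cfsg.Agent.H134.Ore.Alt
import Cfsg.Agent.H78.Pw.Base
import Cfsg.Prelude.Def_Classical

/-!
# Alternating groups: four involutions (S4171) and products of two `m`-th powers (S2465)
-/

set_option autoImplicit false

namespace Cfsg.Agent.H134.Ore

open Equiv Equiv.Perm H134.Bert

section

variable {α : Type*} [DecidableEq α]

/-- An involution inverting a given cycle. -/
theorem exists_reversal (L : List α) (hL : L.Nodup) :
    ∃ ρ : Perm α, ρ * ρ = 1 ∧ (∀ y ∉ L, ρ y = y) ∧ (L.formPerm * ρ) * (L.formPerm * ρ) = 1 := by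
  classical
  have hlt : ∀ y ∈ L, L.length - 1 - L.idxOf y < L.length := by
    intro y hy
    have := List.length_pos_of_mem hy
    omega
  let f : α → α := fun y => if h : y ∈ L then L[L.length - 1 - L.idxOf y]'(hlt y h) else y
  have hf1 : ∀ (i : ℕ) (hi : i < L.length), f L[i] = L[L.length - 1 - i]'(by omega) := by
    intro i hi
    have hm : L[i] ∈ L := List.getElem_mem hi
    show (if h : L[i] ∈ L then L[L.length - 1 - L.idxOf L[i]]'(hlt _ h) else L[i]) = _
    rw [dif_pos hm]
    congr 1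
    rw [List.Nodup.idxOf_getElem hL]
  have hf2 : ∀ y ∉ L, f y = y := fun y hy => dif_neg hy
  have hinv : Function.Involutive f := by
    intro y
    by_cases hy : y ∈ L
    · obtain ⟨i, hi, rfl⟩ := List.mem_iff_getElem.1 hy
      rw [hf1 i hi, hf1 (L.length - 1 - i) (by omega)]
      congr 1
      omega
    · rw [hf2 y hy, hf2 y hy]
  refine ⟨hinv.toPerm, ?_, fun y hy => hf2 y hy, ?_⟩
  · ext y
    exact hinv y
  · ext y
    show L.formPerm (f (L.formPerm (f y))) = y
    by_cases hy : y ∈ L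
    · obtain ⟨i, hi, rfl⟩ := List.mem_iff_getElem.1 hy
      rw [hf1 i hi, List.formPerm_apply_getElem L hL, hf1, List.formPerm_apply_getElem L hL]
      congr 1
      rcases Nat.eq_zero_or_pos i with h0 | h0
      · subst h0
        have e1 : (L.length - 1 - 0 + 1) % L.length = 0 := by
          rw [show L.length - 1 - 0 + 1 = L.length by omega, Nat.mod_self]
        rw [e1, show L.length - 1 - 0 + 1 = L.length by omega, Nat.mod_self]
      · have e1 : (L.length - 1 - i + 1) % L.length = L.length - i := by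
          rw [show L.length - 1 - i + 1 = L.length - i by omega]
          exact Nat.mod_eq_of_lt (by omega)
        rw [e1, show L.length - 1 - (L.length - i) + 1 = i by omega]
        exact Nat.mod_eq_of_lt hi
    · rw [hf2 y hy, List.formPerm_apply_of_notMem hy, hf2 y hy,
        List.formPerm_apply_of_notMem hy]

variable [Fintype α]

/-- A product of two even permutations of square one. -/
def SR (g : Perm α) : Prop :=
  ∃ s t : Perm α, sign s = 1 ∧ sign t = 1 ∧ s * s = 1 ∧ t * t = 1 ∧ g = s * t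

theorem SR.conj {g : Perm α} (h : SR g) (w : Perm α) : SR (w * g * w⁻¹) := by
  obtain ⟨a, b, ha, hb, ha2, hb2, rfl⟩ := h
  refine ⟨w * a * w⁻¹, w * b * w⁻¹, ?_, ?_, ?_, ?_, by group⟩
  · rw [map_mul, map_mul, ha, mul_one, ← map_mul, mul_inv_cancel, map_one]
  · rw [map_mul, map_mul, hb, mul_one, ← map_mul, mul_inv_cancel, map_one]
  · calc w * a * w⁻¹ * (w * a * w⁻¹) = w * (a * a) * w⁻¹ := by group
      _ = 1 := by rw [ha2]; group
  · calc w * b * w⁻¹ * (w * b * w⁻¹) = w * (b * b) * w⁻¹ := by group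
      _ = 1 := by rw [hb2]; group

theorem SR.of_cycleType {g g' : Perm α} (h : SR g) (e : g.cycleType = g'.cycleType) : SR g' := by
  obtain ⟨w, rfl⟩ := isConj_iff.1 (isConj_iff_cycleType_eq.2 e)
  exact h.conj w

/-- An odd cycle with two points left over is a product of two even involutions. -/
theorem SR.of_cyc {u : Perm α} {X : Finset α} (hu : Cyc u X) (ho : Odd X.card)
    (hn : X.card + 2 ≤ Fintype.card α) : SR u := by
  have hsu : sign u = 1 := hu.sign ho
  obtain ⟨L, hL, -, rfl, rfl⟩ := hu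
  obtain ⟨ρ, h1, h2, h3⟩ := exists_reversal L hL
  rcases Int.units_eq_one_or (sign ρ) with hρ | hρ
  · refine ⟨L.formPerm * ρ, ρ, by rw [map_mul, hsu, hρ, mul_one], hρ, h3, h1, ?_⟩
    rw [mul_assoc, h1, mul_one]
  · obtain ⟨p, q, hp, hq, hpq⟩ : ∃ p q, p ∉ L ∧ q ∉ L ∧ p ≠ q := by
      have : 1 < (L.toFinsetᶜ).card := by rw [Finset.card_compl]; omega
      obtain ⟨p, hp, q, hq, hpq⟩ := Finset.one_lt_card.1 this
      rw [Finset.mem_compl, List.mem_toFinset] at hp hq
      exact ⟨p, q, hp, hq, hpq⟩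
    have hc : ∀ w : Perm α, w p = p → w q = q → swap p q * w = w * swap p q := by
      intro w hwp hwq
      have := Equiv.mul_swap_eq_swap_mul w p q
      rw [hwp, hwq] at this
      exact this.symm
    have c1 := hc ρ (h2 p hp) (h2 q hq)
    have c2 := hc L.formPerm (List.formPerm_apply_of_notMem hp) (List.formPerm_apply_of_notMem hq)
    have hs : swap p q * swap p q = 1 := swap_mul_self p q
    have hsg : sign (ρ * swap p q) = 1 := by rw [map_mul, hρ, sign_swap hpq]; rfl
    have hsq : ρ * swap p q * (ρ * swap p q) = 1 := by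
      calc ρ * swap p q * (ρ * swap p q) = ρ * (swap p q * ρ) * swap p q := by group
        _ = ρ * (ρ * swap p q) * swap p q := by rw [c1]
        _ = (ρ * ρ) * (swap p q * swap p q) := by group
        _ = 1 := by rw [h1, hs, one_mul]
    have c3 : swap p q * (L.formPerm * ρ) = L.formPerm * ρ * swap p q := by
      calc swap p q * (L.formPerm * ρ) = (swap p q * L.formPerm) * ρ := by group
        _ = L.formPerm * (swap p q * ρ) := by rw [c2]; group
        _ = _ := by rw [c1]; group
    refine ⟨L.formPerm * (ρ * swap p q), ρ * swap p q, by rw [map_mul, hsu, hsg, mul_one], hsg,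
      ?_, hsq, ?_⟩
    · calc L.formPerm * (ρ * swap p q) * (L.formPerm * (ρ * swap p q))
          = L.formPerm * ρ * (swap p q * (L.formPerm * ρ)) * swap p q := by group
        _ = L.formPerm * ρ * (L.formPerm * ρ * swap p q) * swap p q := by rw [c3]
        _ = (L.formPerm * ρ * (L.formPerm * ρ)) * (swap p q * swap p q) := by group
        _ = 1 := by rw [h3, hs, one_mul]
    · rw [mul_assoc, hsq, mul_one]

/-- A product of four even permutations of square one. -/
def Four (g : Perm α) : Prop := ∃ a b : Perm α, SR a ∧ SR b ∧ g = a * b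

theorem SR.one : SR (1 : Perm α) := ⟨1, 1, map_one _, map_one _, by simp, by simp, by simp⟩

theorem SR.four {g : Perm α} (h : SR g) : Four g := ⟨g, 1, h, SR.one, by simp⟩

end

theorem sr_42 : ∃ t : Perm (Fin 6), SR t ∧ t.cycleType = {2, 4} := by
  refine ⟨([0, 1, 2, 3] : List (Fin 6)).formPerm * ([4, 5] : List (Fin 6)).formPerm,
    ⟨([0, 1, 2, 3] : List (Fin 6)).formPerm * ([4, 5] : List (Fin 6)).formPerm *
      (([0, 3] : List (Fin 6)).formPerm * ([1, 2] : List (Fin 6)).formPerm),
      ([0, 3] : List (Fin 6)).formPerm * ([1, 2] : List (Fin 6)).formPerm, by decide, by decide,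
      by decide, by decide, by decide⟩, by decide⟩

theorem sr_33 : ∃ t : Perm (Fin 6), SR t ∧ t.cycleType = {3, 3} := by
  refine ⟨([0, 1, 2] : List (Fin 6)).formPerm * ([3, 4, 5] : List (Fin 6)).formPerm,
    ⟨([0, 1, 2] : List (Fin 6)).formPerm * ([3, 4, 5] : List (Fin 6)).formPerm *
      (([0, 2] : List (Fin 6)).formPerm * ([3, 5] : List (Fin 6)).formPerm),
      ([0, 2] : List (Fin 6)).formPerm * ([3, 5] : List (Fin 6)).formPerm, by decide, by decide,
      by decide, by decide, by decide⟩, by decide⟩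

/-- The trichotomy behind the rows for the alternating groups: an odd `l ≤ n - 2` with
`g` a product of two `l`-cycles, or an exceptional cycle type in degree `6` or `8`. -/
theorem trichotomy {n : ℕ} (hn : 5 ≤ n) (g : Perm (Fin n)) (hg : sign g = 1) :
    (∃ l, l % 2 = 1 ∧ l + 2 ≤ n ∧ Two g l) ∨
      (n = 6 ∧ (g.cycleType = {2, 4} ∨ g.cycleType = {3, 3})) ∨
      (n = 8 ∧ g.cycleType = {2, 2, 2, 2}) := by
  by_cases hg1 : g = 1
  · left
    refine ⟨1, rfl, by omega, ?_⟩
    subst hg1
    exact ⟨1, 1, {⟨0, by omega⟩}, {⟨0, by omega⟩}, cyc_one _, cyc_one _, by simp, by simp,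
      by simp⟩
  obtain ⟨r, hr, hr1, h⟩ := bertram_exact g hg hg1
  have hc := card_cycleType_le g
  have hs : g.support.card ≤ n := by
    have := Finset.card_le_univ g.support
    rwa [Fintype.card_fin] at this
  by_cases ho : ∃ l, r ≤ l ∧ l + 2 ≤ n ∧ l % 2 = 1
  · obtain ⟨l, h1, h2, h3⟩ := ho
    have hl : l ≤ Fintype.card (Fin n) := by rw [Fintype.card_fin]; omega
    exact Or.inl ⟨l, h3, h2, h.mono h1 hl⟩
  push Not at ho
  right
  have key : r + 2 = n ∧ (n = 6 ∨ n = 8) := by
    have h1 := ho r le_rfl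
    have h2 := ho (r + 1) (by omega)
    omega
  obtain ⟨hr2, h68⟩ := key
  have h2le : ∀ m ∈ g.cycleType, 2 ≤ m := fun m hm => two_le_of_mem_cycleType hm
  rcases h68 with rfl | rfl
  · left
    refine ⟨rfl, ?_⟩
    have hc2 : Multiset.card g.cycleType = 2 := by omega
    have hsum : g.cycleType.sum = 6 := by rw [sum_cycleType]; omega
    obtain ⟨a, b, hab⟩ := Multiset.card_eq_two.1 hc2
    rw [hab] at hsum h2le ⊢
    have ha := h2le a (by simp)
    have hb := h2le b (by simp)
    simp only [Multiset.insert_eq_cons, Multiset.sum_cons, Multiset.sum_singleton] at hsum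
    have : (a = 2 ∧ b = 4) ∨ (a = 3 ∧ b = 3) ∨ (a = 4 ∧ b = 2) := by omega
    rcases this with ⟨rfl, rfl⟩ | ⟨rfl, rfl⟩ | ⟨rfl, rfl⟩
    · exact Or.inl rfl
    · exact Or.inr rfl
    · exact Or.inl (Multiset.pair_comm _ _)
  · right
    refine ⟨rfl, ?_⟩
    have hc4 : Multiset.card g.cycleType = 4 := by omega
    have hsum : g.cycleType.sum = 8 := by rw [sum_cycleType]; omega
    have hall : ∀ m ∈ g.cycleType, m = 2 := by
      intro m hm
      obtain ⟨s, hs'⟩ := Multiset.exists_cons_of_mem hm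
      have h3 : ∀ x ∈ s, 2 ≤ x := fun x hx => h2le x (by rw [hs']; simp [hx])
      have h4 := Multiset.card_nsmul_le_sum h3
      rw [hs', Multiset.sum_cons] at hsum
      rw [hs', Multiset.card_cons] at hc4
      have h5 := h2le m hm
      simp only [smul_eq_mul] at h4
      omega
    rw [Multiset.eq_replicate.2 ⟨hc4, hall⟩]
    rfl

theorem four_all {n : ℕ} (hn : 5 ≤ n) (g : Perm (Fin n)) (hg : sign g = 1) : Four g := by
  rcases trichotomy hn g hg with ⟨l, hl, hln, h⟩ | ⟨rfl, h | h⟩ | ⟨rfl, h⟩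
  · obtain ⟨u, v, X, Y, hu, hv, e, hX, hY⟩ := h
    exact ⟨u, v, SR.of_cyc hu (by rw [hX]; exact Nat.odd_iff.2 hl)
      (by rw [hX, Fintype.card_fin]; omega), SR.of_cyc hv (by rw [hY]; exact Nat.odd_iff.2 hl)
      (by rw [hY, Fintype.card_fin]; omega), e⟩
  · obtain ⟨t, ht, ht'⟩ := sr_42
    exact (ht.of_cycleType (by rw [ht', h])).four
  · obtain ⟨t, ht, ht'⟩ := sr_33
    exact (ht.of_cycleType (by rw [ht', h])).four
  · have h2 : g * g = 1 := by
      have : orderOf g ∣ 2 := by
        rw [← lcm_cycleType, h]; decide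
      rw [← pow_two]
      exact orderOf_dvd_iff_pow_eq_one.1 this
    have : SR g := ⟨g, 1, hg, map_one _, h2, by simp, by simp⟩
    exact this.four

/-- **Four involutions**: the row of S4171 for the alternating groups. -/
theorem four_alt {n : ℕ} (hn : 5 ≤ n) : H777.Ore.Inv4 (alternatingGroup (Fin n)) := by
  intro g
  obtain ⟨a, b, ⟨s, t, h1, h2, h3, h4, e1⟩, ⟨s', t', h1', h2', h3', h4', e2⟩, e⟩ :=
    four_all hn (g : Perm (Fin n)) (mem_alternatingGroup.1 g.2)
  refine ⟨⟨s, mem_alternatingGroup.2 h1⟩, ⟨t, mem_alternatingGroup.2 h2⟩,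
    ⟨s', mem_alternatingGroup.2 h1'⟩, ⟨t', mem_alternatingGroup.2 h2'⟩, Subtype.ext h3,
    Subtype.ext h4, Subtype.ext h3', Subtype.ext h4', Subtype.ext ?_⟩
  show (g : Perm (Fin n)) = s * t * s' * t'
  rw [e, e1, e2]; group

/-- Products of two elements of order prime to `m` in the alternating group. -/
theorem pr_of_two {n l m : ℕ} (hl : l % 2 = 1) (hlm : l.Coprime m) (g : alternatingGroup (Fin n))
    (h : Two (g : Perm (Fin n)) l) : H78.Pw.Pr m g := by
  obtain ⟨u, v, X, Y, hu, hv, e, hX, hY⟩ := h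
  refine ⟨⟨u, mem_alternatingGroup.2 (hu.sign (hX ▸ Nat.odd_iff.2 hl))⟩,
    ⟨v, mem_alternatingGroup.2 (hv.sign (hY ▸ Nat.odd_iff.2 hl))⟩, Subtype.ext e, ?_, ?_⟩
  · rw [← Subgroup.orderOf_coe, hu.orderOf, hX]; exact hlm
  · rw [← Subgroup.orderOf_coe, hv.orderOf, hY]; exact hlm

theorem two_of_le {n l : ℕ} (h1 : 1 ≤ l) (h2 : (n + n / 2) / 2 ≤ l) (h3 : l ≤ n)
    (g : alternatingGroup (Fin n)) : Two (g : Perm (Fin n)) l :=
  bertram' (g : Perm (Fin n)) (mem_alternatingGroup.1 g.2) h1 (by rw [Fintype.card_fin]; exact h2)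
    (by rw [Fintype.card_fin]; exact h3)

theorem all_six {n : ℕ} (hn : 5 ≤ n) : H78.Pw.All 6 (alternatingGroup (Fin n)) := by
  intro g
  obtain ⟨l, h1, h2, h3⟩ : ∃ l, (n + n / 2) / 2 ≤ l ∧ l ≤ n ∧ (l % 6 = 1 ∨ l % 6 = 5) := by
    set a := (n + n / 2) / 2 with ha
    have hcase : (a % 6 = 1 ∨ a % 6 = 5) ∨ ((a + 1) % 6 = 1 ∨ (a + 1) % 6 = 5) ∨
      ((a + 2) % 6 = 1 ∨ (a + 2) % 6 = 5) ∨ ((a + 3) % 6 = 1 ∨ (a + 3) % 6 = 5) := by
      clear_value a
      have h0 : a % 6 = 0 ∨ a % 6 = 1 ∨ a % 6 = 2 ∨ a % 6 = 3 ∨ a % 6 = 4 ∨ a % 6 = 5 := by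
        omega
      rcases h0 with h | h | h | h | h | h
      · right; left; left; omega
      · left; left; exact h
      · right; right; right; right; omega
      · right; right; left; right; omega
      · right; left; right; omega
      · left; right; exact h
    by_cases h12 : 12 ≤ n
    · rcases hcase with h | h | h | h
      · exact ⟨a, le_rfl, by omega, h⟩
      · exact ⟨a + 1, by omega, by omega, h⟩
      · exact ⟨a + 2, by omega, by omega, h⟩
      · exact ⟨a + 3, by omega, by omega, h⟩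
    · have : n = 5 ∨ n = 6 ∨ n = 7 ∨ n = 8 ∨ n = 9 ∨ n = 10 ∨ n = 11 := by omega
      rcases this with rfl | rfl | rfl | rfl | rfl | rfl | rfl
      · exact ⟨5, by omega, by omega, by omega⟩
      · exact ⟨5, by omega, by omega, by omega⟩
      · exact ⟨7, by omega, by omega, by omega⟩
      · exact ⟨7, by omega, by omega, by omega⟩
      · exact ⟨7, by omega, by omega, by omega⟩
      · exact ⟨7, by omega, by omega, by omega⟩
      · exact ⟨11, by omega, by omega, by omega⟩
  refine pr_of_two (l := l) (by omega) ?_ g (two_of_le (by omega) h1 h2 g)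
  rw [Nat.Coprime, Nat.gcd_comm, Nat.gcd_rec]
  rcases h3 with h | h <;> rw [h] <;> decide

theorem not_dvd_coprime {p l : ℕ} (hp : p.Prime) (h : ¬ p ∣ l) : l.Coprime p :=
  ((Nat.Prime.coprime_iff_not_dvd hp).2 h).symm

theorem all_prime {n : ℕ} (hn : 5 ≤ n) {p : ℕ} (hp : p.Prime) (h5 : 5 ≤ p) :
    H78.Pw.All p (alternatingGroup (Fin n)) := by
  intro g
  -- large degree
  by_cases hex : ∃ l, (n + n / 2) / 2 ≤ l ∧ l ≤ n ∧ l % 2 = 1 ∧ ¬ p ∣ l
  · obtain ⟨l, h1, h2, h3, h4⟩ := hex
    exact pr_of_two h3 (not_dvd_coprime hp h4) g (two_of_le (by omega) h1 h2 g)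
  have h68 : n = 6 ∨ n = 8 := by
    by_contra hne
    apply hex
    have hp9 : ¬ p ∣ 9 := by
      intro hd
      have h9 : p ∣ 3 := hp.dvd_of_dvd_pow (show p ∣ 3 ^ 2 by simpa using hd)
      have := Nat.le_of_dvd (by norm_num) h9
      omega
    have hp3 : ¬ p ∣ 3 := by
      intro hd
      have := Nat.le_of_dvd (by norm_num) hd
      omega
    have hpd : ∀ l, p ∣ l → p ∣ l + 2 → False := by
      intro l h1 h2
      have h3 : p ∣ 2 := (Nat.dvd_add_right h1).1 h2
      have := Nat.le_of_dvd (by norm_num) h3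
      omega
    by_cases h13 : 13 ≤ n
    · set a := (n + n / 2) / 2 with ha
      obtain ⟨b, hb1, hb2, hb3⟩ : ∃ b, a ≤ b ∧ b ≤ a + 1 ∧ b % 2 = 1 := by
        rcases Nat.mod_two_eq_zero_or_one a with h | h
        · exact ⟨a + 1, by omega, by omega, by omega⟩
        · exact ⟨a, by omega, by omega, by omega⟩
      by_cases hpb : p ∣ b
      · exact ⟨b + 2, by omega, by omega, by omega, fun h => hpd b hpb h⟩
      · exact ⟨b, by omega, by omega, by omega, hpb⟩
    · have : n = 5 ∨ n = 7 ∨ n = 9 ∨ n = 10 ∨ n = 11 ∨ n = 12 := by omega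
      rcases this with rfl | rfl | rfl | rfl | rfl | rfl
      · exact ⟨3, by omega, by omega, by omega, hp3⟩
      · by_cases hp5 : p ∣ 5
        · exact ⟨7, by omega, by omega, by omega, fun h => hpd 5 hp5 h⟩
        · exact ⟨5, by omega, by omega, by omega, hp5⟩
      · exact ⟨9, by omega, by omega, by omega, hp9⟩
      · exact ⟨9, by omega, by omega, by omega, hp9⟩
      · exact ⟨9, by omega, by omega, by omega, hp9⟩
      · exact ⟨9, by omega, by omega, by omega, hp9⟩
  -- degrees 6 and 8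
  have hsmall : ∀ q : ℕ, orderOf g ∣ q → ¬ p ∣ q → H78.Pw.Pr p g := fun q hq hpq =>
    H78.Pw.Pr.of_coprime (not_dvd_coprime hp fun h => hpq (h.trans hq))
  have hp12 : ¬ p ∣ 12 := by
    intro hd
    have : p ∣ 2 ^ 2 * 3 := by simpa using hd
    rcases (Nat.Prime.dvd_mul hp).1 this with h | h
    · have := Nat.le_of_dvd (by norm_num) (hp.dvd_of_dvd_pow h)
      omega
    · have := Nat.le_of_dvd (by norm_num) h
      omega
  rcases trichotomy hn (g : Perm (Fin n)) (mem_alternatingGroup.1 g.2) with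
    ⟨l, hl, hln, h⟩ | ⟨-, h⟩ | ⟨-, h⟩
  · -- enlarge `l` to `3` or `5` respectively
    rcases h68 with rfl | rfl
    · have h3 : Two (g : Perm (Fin 6)) 3 := h.mono (by omega) (by rw [Fintype.card_fin]; omega)
      refine pr_of_two (l := 3) rfl (not_dvd_coprime hp ?_) g h3
      intro hd
      have := Nat.le_of_dvd (by norm_num) hd
      omega
    · have h5' : Two (g : Perm (Fin 8)) 5 := h.mono (by omega) (by rw [Fintype.card_fin]; omega)
      have hp57 : ¬ p ∣ 5 ∨ ¬ p ∣ 7 := by
        by_contra hc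
        push Not at hc
        have h3 : p ∣ 2 := (Nat.dvd_add_right hc.1).1 (show p ∣ 5 + 2 from hc.2)
        have := Nat.le_of_dvd (by norm_num) h3
        omega
      rcases hp57 with h5 | h7
      · exact pr_of_two (l := 5) rfl (not_dvd_coprime hp h5) g h5'
      · exact pr_of_two (l := 7) rfl (not_dvd_coprime hp h7) g
          (h5'.mono (by omega) (by rw [Fintype.card_fin]; omega))
  · refine hsmall 12 ?_ hp12
    rw [← Subgroup.orderOf_coe, ← lcm_cycleType]
    rcases h with h | h <;> rw [h] <;> decide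
  · refine hsmall 12 ?_ hp12
    rw [← Subgroup.orderOf_coe, ← lcm_cycleType, h]
    decide

/-- The row of S2465 for the alternating groups. -/
theorem pw_alt {S : Type*} [Group S] (h : IsAlternating S) : H78.Pw.Pw S := by
  obtain ⟨n, hn, ⟨e⟩⟩ := h
  exact H78.Pw.Pw.congr e.symm ⟨all_six hn, fun p hp h5 => all_prime hn hp h5⟩

end Cfsg.Agent.H134.Ore
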